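import Mathlib
import Cfsg.Agent.PLocal.CharP
import Cfsg.Agent.PLocal.FStar
import Cfsg.Agent.S1782
import Cfsg.Agent.S1783

/-! An involution `z = b²` whose centralizer normalizes `⟨b⟩ ≅ ℤ₄` and a subgroup `P = ⟨b⟩ ∘ E`. -/

set_option autoImplicit false
set_option linter.unusedSectionVars false

namespace Cfsg.Agent.SymT

open Subgroup Cfsg Cfsg.Agent.PLocal Cfsg.Agent.PLocal.Amb
open Cfsg.Agent.PLocal.CP (IsCharP)

variable {G : Type*} [Group G]

open Classical in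
/-- The commutation form. -/
noncomputable def fm (x y : G) : ZMod 2 := if Commute x y then 0 else 1

theorem fm0 {x y : G} : fm x y = 0 ↔ Commute x y := by
  unfold fm; split_ifs with h <;> simp [h]

theorem fm1 {x y : G} : fm x y = 1 ↔ ¬ Commute x y := by
  unfold fm; split_ifs with h <;> simp [h]

theorem fm_comm (x y : G) : fm x y = fm y x := by
  by_cases h : Commute x y
  · rw [fm0.2 h, fm0.2 h.symm]
  · rw [fm1.2 h, fm1.2 fun e => h e.symm]

theorem fm_self (x : G) : fm x x = 0 := fm0.2 (Commute.refl x)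

theorem fm_one (x : G) : fm x 1 = 0 := fm0.2 (Commute.one_right x)

theorem comm_conj {x y : G} (g : G) : Commute (g * x * g⁻¹) (g * y * g⁻¹) ↔ Commute x y :=
  ⟨fun h => by simpa [mul_assoc] using h.conj g⁻¹, fun h => h.conj g⟩

theorem fm_conj (g x y : G) : fm (g * x * g⁻¹) (g * y * g⁻¹) = fm x y := by
  unfold fm; rw [comm_conj]

theorem fm_inv (x y : G) : fm x y⁻¹ = fm x y := by
  unfold fm; rw [Commute.inv_right_iff]

theorem fm_conj' (g x y : G) : fm (g * x * g⁻¹) y = fm x (g⁻¹ * y * g) := by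
  rw [← fm_conj g x]; congr 1; group

theorem conj_eq {g x : G} (h : Commute g x) : g * x * g⁻¹ = x := by rw [h.eq]; group

theorem of_conj_eq {g x : G} (h : g * x * g⁻¹ = x) : Commute g x := mul_inv_eq_iff_eq_mul.1 h

theorem mem_cent {g x : G} : g ∈ centralizer ({x} : Set G) ↔ Commute g x :=
  mem_centralizer_singleton_iff

theorem z01 (a : ZMod 2) : a = 0 ∨ a = 1 := by revert a; decide

theorem mem_zp4 {b z x : G} (bb : b * b = z) (zz : z * z = 1) :
    x ∈ zpowers b ↔ x = 1 ∨ x = b ∨ x = z ∨ x = b * z := by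
  have e2 : b ^ (2 : ℤ) = z := by rw [zpow_two, bb]
  constructor
  · rintro ⟨n, rfl⟩
    have h4 : ∀ c : ℤ, b ^ (4 * c) = 1 := fun c => by
      rw [zpow_mul, show (4 : ℤ) = 2 * 2 from rfl, zpow_mul, e2, zpow_two, zz, one_zpow]
    obtain ⟨c, rfl | rfl | rfl | rfl⟩ : ∃ c, n = 4 * c ∨ n = 4 * c + 1 ∨ n = 4 * c + 2 ∨
        n = 4 * c + 1 + 2 := ⟨n / 4, by omega⟩ <;> simp [zpow_add, h4, e2]
  · have := mem_zpowers b
    have hz : z ∈ zpowers b := bb ▸ mul_mem this this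
    rintro (rfl | rfl | rfl | rfl)
    exacts [one_mem _, this, hz, mul_mem this hz]

/-- The local hypothesis. -/
structure Loc (z b : G) (P : Subgroup G) : Prop where
  bb : b * b = z
  zz : z * z = 1
  z1 : z ≠ 1
  nb : ∀ g, Commute g z → g * b * g⁻¹ = b ∨ g * b * g⁻¹ = b * z
  bP : b ∈ P
  cb : ∀ x ∈ P, Commute x b
  cm : ∀ x ∈ P, ∀ y ∈ P, Commute x y ∨ x * y * x⁻¹ = y * z
  sq : ∀ x ∈ P, x * x = 1 ∨ x * x = z
  ctr : ∀ x ∈ P, (∀ y ∈ P, Commute y x) → x ∈ zpowers b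
  nP : ∀ g, Commute g z → ∀ x ∈ P, g * x * g⁻¹ ∈ P

/-- Equality modulo the centre of `P`. -/
def Ev (P : Subgroup G) (x y : G) : Prop := ∀ v ∈ P, fm v x = fm v y

theorem Ev.rfl {P : Subgroup G} {x : G} : Ev P x x := fun _ _ => Eq.refl _

theorem Ev.symm {P : Subgroup G} {x y : G} (h : Ev P x y) : Ev P y x := fun v hv => (h v hv).symm

theorem Ev.trans {P : Subgroup G} {x y w : G} (h : Ev P x y) (h' : Ev P y w) : Ev P x w :=
  fun v hv => (h v hv).trans (h' v hv)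

namespace Loc

variable {z b : G} {P : Subgroup G} (h : Loc z b P) {x y v g : G}
include h

theorem bz : Commute b z := h.bb ▸ (Commute.refl b).mul_right (Commute.refl b)

theorem zP : z ∈ P := h.bb ▸ P.mul_mem h.bP h.bP

theorem cz (hx : x ∈ P) : Commute x z := h.bb ▸ (h.cb x hx).mul_right (h.cb x hx)

theorem comm_z (hx : Commute x b) : Commute x z := h.bb ▸ hx.mul_right hx

theorem zi : z⁻¹ = z := inv_eq_of_mul_eq_one_right h.zz

theorem mzz (x : G) : x * z * z = x := by rw [mul_assoc, h.zz, mul_one]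

theorem bi : b⁻¹ = b * z := inv_eq_of_mul_eq_one_right (by rw [← mul_assoc, h.bb, h.zz])

theorem ne_mz (x : G) : x * z ≠ x := by simpa using h.z1

theorem oz : orderOf z = 2 := orderOf_eq_prime (by rw [pow_two, h.zz]) h.z1

theorem b4 : b ^ 4 = 1 := by rw [show 4 = 2 * 2 from rfl, pow_mul, pow_two, pow_two, h.bb, h.zz]

theorem ob : orderOf b = 4 :=
  orderOf_eq_prime_pow (p := 2) (n := 1) (by rw [pow_one, pow_two, h.bb]; exact h.z1) h.b4

theorem memA : x ∈ zpowers b ↔ x = 1 ∨ x = b ∨ x = z ∨ x = b * z := mem_zp4 h.bb h.zz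

theorem zA : z ∈ zpowers b := h.memA.2 (by simp)

theorem AP : zpowers b ≤ P := zpowers_le.2 h.bP

theorem bzbz : b * z * (b * z) = z := by rw [← h.bi, ← mul_inv_rev, h.bb, h.zi]

theorem invol (hx : x ∈ zpowers b) (h2 : x * x = 1) : x = 1 ∨ x = z := by
  rcases h.memA.1 hx with e | e | e | e
  · exact Or.inl e
  · exact absurd (by rw [← h.bb, ← e, h2]) h.z1
  · exact Or.inr e
  · exact absurd (by rw [← h.bzbz, ← e, h2]) h.z1

theorem cA (hx : Commute x b) (hy : y ∈ zpowers b) : Commute x y := by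
  obtain ⟨n, rfl⟩ := hy
  exact hx.zpow_right n

theorem pgrp : IsPGroup 2 P := isPGroup_iff.2 fun x hx => ⟨2, by
  rw [show 2 ^ 2 = 2 * 2 from rfl, pow_mul, pow_two, pow_two]
  rcases h.sq x hx with e | e <;> rw [e]
  exacts [one_mul 1, h.zz]⟩

theorem conj1 (hx : x ∈ P) (hy : y ∈ P) (e : ¬ Commute x y) : x * y * x⁻¹ = y * z :=
  (h.cm x hx y hy).resolve_left e

theorem fm_mul (hv : v ∈ P) (hx : x ∈ P) (hy : y ∈ P) : fm v (x * y) = fm v x + fm v y := by
  by_cases e : Commute v x <;> by_cases e' : Commute v y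
  · rw [fm0.2 e, fm0.2 e', fm0.2 (e.mul_right e'), add_zero]
  · rw [fm0.2 e, fm1.2 e', fm1.2 fun e2 => e' (by simpa using e.inv_right.mul_right e2), zero_add]
  · rw [fm1.2 e, fm0.2 e', fm1.2 fun e2 => e (by simpa using e2.mul_right e'.inv_right), add_zero]
  · rw [fm1.2 e, fm1.2 e', fm0.2 (of_conj_eq (by
      rw [← conj_mul, h.conj1 hv hx e, h.conj1 hv hy e', mul_assoc, ← mul_assoc z, ← (h.cz hy).eq,
        h.mzz]))]
    rfl

theorem fm_mul' (hx : x ∈ P) (hy : y ∈ P) (hv : v ∈ P) : fm (x * y) v = fm x v + fm y v := by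
  rw [fm_comm, h.fm_mul hv hx hy, fm_comm x, fm_comm y]

theorem fm_b (hx : x ∈ P) : fm x b = 0 := fm0.2 (h.cb x hx)

theorem fm_z (hx : x ∈ P) : fm x z = 0 := fm0.2 (h.cz hx)

theorem ev_mz (hx : x ∈ P) : Ev P (x * z) x := fun v hv => by
  rw [h.fm_mul hv hx h.zP, h.fm_z hv, add_zero]

theorem ev_mb (hx : x ∈ P) : Ev P (x * b) x := fun v hv => by
  rw [h.fm_mul hv hx h.bP, h.fm_b hv, add_zero]

theorem ev_mul {x' y' : G} (hx : x ∈ P) (hy : y ∈ P) (hx' : x' ∈ P) (hy' : y' ∈ P) (e : Ev P x x')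
    (e' : Ev P y y') : Ev P (x * y) (x' * y') := fun v hv => by
  rw [h.fm_mul hv hx hy, h.fm_mul hv hx' hy', e v hv, e' v hv]

theorem ev_conj (hg : Commute g z) (e : Ev P x y) : Ev P (g * x * g⁻¹) (g * y * g⁻¹) := fun v hv => by
  have := h.nP g⁻¹ hg.inv_left v hv
  rw [fm_comm, fm_conj', fm_comm v, fm_conj', fm_comm x, fm_comm y]
  simpa using e _ this

theorem ev_iff (hx : x ∈ P) (hy : y ∈ P) : Ev P x y ↔ x⁻¹ * y ∈ zpowers b := by
  constructor
  · refine fun e => h.ctr _ (mul_mem (inv_mem hx) hy) fun v hv => fm0.1 ?_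
    rw [h.fm_mul hv (inv_mem hx) hy, fm_inv, e v hv, CharTwo.add_self_eq_zero]
  · intro e v hv
    rw [← mul_inv_cancel_left x y, h.fm_mul hv hx (h.AP e), fm0.2 (h.cA (h.cb v hv) e), add_zero]

theorem ev_one (hx : x ∈ P) : Ev P x 1 ↔ x ∈ zpowers b := by
  rw [h.ev_iff hx (one_mem P), mul_one, inv_mem_iff]

theorem eq_of_ev (hx : x ∈ P) (hy : y ∈ P) (e : Ev P x y) (h2 : x * x = y * y) :
    y = x ∨ y = x * z := by
  have e1 := (h.ev_iff hx hy).1 e
  have c := h.cA (h.cb x hx) e1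
  have : x⁻¹ * y * (x⁻¹ * y) = 1 := by
    have e2 : x * (x⁻¹ * y) * (x * (x⁻¹ * y)) = x * x * (x⁻¹ * y * (x⁻¹ * y)) := by
      rw [mul_assoc x, ← mul_assoc (x⁻¹ * y), ← c.eq]; group
    rw [mul_inv_cancel_left, ← h2] at e2
    exact left_eq_mul.1 e2
  refine (h.invol e1 this).imp (fun e => ?_) fun e => ?_
  · exact (inv_mul_eq_one.1 e).symm
  · rw [← e, mul_inv_cancel_left]

theorem sq_mul (hx : x ∈ P) (hy : y ∈ P) (e : ¬ Commute x y) :
    x * y * (x * y) = x * x * (y * y) * z := by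
  have := h.conj1 hy hx fun e' => e e'.symm
  calc x * y * (x * y) = x * (y * x * y⁻¹) * y * y := by group
    _ = x * x * (z * (y * y)) := by rw [this]; group
    _ = _ := by rw [← (h.cz (mul_mem hy hy)).eq]; group

theorem step {X : Subgroup G} (hX : X ≤ P) {a w : G} (ha : a ∈ P) (hy : y ∈ P) (hw : w ∈ P)
    (e : ∀ x ∈ X, Commute x a → fm x y = fm x w) :
    (∀ x ∈ X, fm x y = fm x w) ∨ ∀ x ∈ X, fm x (y * a) = fm x w := by
  refine or_iff_not_imp_left.2 fun hn x hx => ?_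
  push Not at hn
  obtain ⟨x₀, h0, h1⟩ := hn
  rw [h.fm_mul (hX hx) hy ha]
  by_cases c : Commute x a
  · rw [e x hx c, fm0.2 c, add_zero]
  · have h2 := e _ (mul_mem hx h0) (fm0.1 (by
      rw [h.fm_mul' (hX hx) (hX h0) ha, fm1.2 c, fm1.2 fun c' => h1 (e _ h0 c')]; rfl))
    rw [h.fm_mul' (hX hx) (hX h0) hy, h.fm_mul' (hX hx) (hX h0) hw] at h2
    rw [fm1.2 c]
    revert h1 h2
    generalize fm x y = p, fm x w = q, fm x₀ y = r, fm x₀ w = s
    revert p q r s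
    decide

theorem dual (L : List G) (hL : ∀ y ∈ L, y ∈ P) {w : G} (hw : w ∈ P) {F : Subgroup G}
    (hF : ∀ y ∈ L, y ∈ F) {X : Subgroup G} (hX : X ≤ P)
    (e : ∀ x ∈ X, (∀ y ∈ L, Commute x y) → Commute x w) :
    ∃ y ∈ P, y ∈ F ∧ ∀ x ∈ X, fm x y = fm x w := by
  induction L generalizing X with
  | nil => exact ⟨1, one_mem _, one_mem _, fun x hx => by rw [fm_one, fm0.2 (e x hx (by simp))]⟩
  | cons a L ih =>
    obtain ⟨y, h1, h2, h3⟩ := ih (fun y hy => hL y (by simp [hy])) (fun y hy => hF y (by simp [hy]))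
      (X := X ⊓ centralizer {a}) (inf_le_left.trans hX) fun x hx hc => e x hx.1 (by
        simpa using ⟨mem_cent.1 hx.2, hc⟩)
    have ha := hL a (by simp)
    rcases h.step hX ha h1 hw fun x hx c => h3 x ⟨hx, mem_cent.2 c⟩ with h4 | h4
    · exact ⟨y, h1, h2, h4⟩
    · exact ⟨_, mul_mem h1 ha, mul_mem h2 (hF a (by simp)), h4⟩

theorem dual1 {t w : G} (ht : t ∈ P) (hw : w ∈ P) (e : ∀ x ∈ P, Commute x t → Commute x w) :
    Ev P w 1 ∨ Ev P w t := by
  rcases h.step le_rfl ht (one_mem P) hw fun x hx c => by rw [fm_one, fm0.2 (e x hx c)] with e | e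
  · exact Or.inl (Ev.symm e)
  · exact Or.inr (Ev.symm (one_mul t ▸ e :))

theorem dual2 {s t w : G} (hs : s ∈ P) (ht : t ∈ P) (hw : w ∈ P)
    (e : ∀ x ∈ P, Commute x s → Commute x t → Commute x w) :
    Ev P w 1 ∨ Ev P w s ∨ Ev P w t ∨ Ev P w (s * t) := by
  rcases h.step (X := P ⊓ centralizer {t}) inf_le_left hs (one_mem P) hw fun x hx c => by
    rw [fm_one, fm0.2 (e x hx.1 c (mem_cent.1 hx.2))] with e | e
  · rcases h.step le_rfl ht (one_mem P) hw fun x hx c => e x ⟨hx, mem_cent.2 c⟩ with e | e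
    · exact Or.inl (Ev.symm e)
    · exact Or.inr (Or.inr (Or.inl (Ev.symm (one_mul t ▸ e :))))
  · rw [one_mul] at e
    rcases h.step le_rfl ht hs hw fun x hx c => e x ⟨hx, mem_cent.2 c⟩ with e | e
    · exact Or.inr (Or.inl (Ev.symm e))
    · exact Or.inr (Or.inr (Or.inr (Ev.symm e)))

theorem exists_nc (hx : x ∈ P) (h1 : x ∉ zpowers b) : ∃ y ∈ P, ¬ Commute y x := by
  by_contra! e
  exact h1 (h.ctr x hx e)

theorem notA (h2 : x * x = 1) (h1 : x ≠ 1) (hz : x ≠ z) : x ∉ zpowers b := fun e =>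
  (h.invol e h2).elim h1 hz

theorem conj (g : G) : Loc (g * z * g⁻¹) (g * b * g⁻¹) cj(g, P) := by
  have k : ∀ {x y : G}, Commute x (g * y * g⁻¹) → Commute (g⁻¹ * x * g) y := fun {x y} e => by
    simpa [mul_assoc] using e.conj g⁻¹
  refine ⟨by rw [conj_mul, h.bb], by rw [conj_mul, h.zz]; simp, by simpa using h.z1,
    fun x hx => ?_, conj_mem_cj g h.bP, ?_, ?_, ?_, ?_, fun x hx y hy => ?_⟩
  · have e : x * (g * b * g⁻¹) * x⁻¹ = g * (g⁻¹ * x * g * b * (g⁻¹ * x * g)⁻¹) * g⁻¹ := by group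
    rw [e, conj_mul]
    exact (h.nb _ (k hx)).imp (fun a => by rw [a]) fun a => by rw [a]
  · rintro _ ⟨x, hx, rfl⟩
    exact (h.cb x hx).conj g
  · rintro _ ⟨x, hx, rfl⟩ _ ⟨y, hy, rfl⟩
    refine (h.cm x hx y hy).imp (fun e => e.conj g) fun e => ?_
    change g * x * g⁻¹ * (g * y * g⁻¹) * (g * x * g⁻¹)⁻¹ = g * y * g⁻¹ * _
    rw [conj_mul (a := y), ← e]; group
  · rintro _ ⟨x, hx, rfl⟩
    change g * x * g⁻¹ * (g * x * g⁻¹) = _ ∨ g * x * g⁻¹ * (g * x * g⁻¹) = _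
    rw [conj_mul]
    exact (h.sq x hx).imp (fun e => by rw [e]; simp) fun e => by rw [e]
  · rintro _ ⟨x, hx, rfl⟩ e
    obtain ⟨n, hn⟩ := h.ctr x hx fun y hy => (comm_conj g).1 (e _ (conj_mem_cj g hy))
    exact ⟨n, by rw [← hn]; exact conj_zpow⟩
  · rw [mem_cj] at hy ⊢
    have := h.nP _ (k hx) _ hy
    convert this using 1
    group

theorem inv : Loc z (b * z) P := by
  refine ⟨h.bzbz, h.zz, h.z1, fun g hg => ?_, mul_mem h.bP h.zP,
    fun x hx => (h.cb x hx).mul_right (h.cz hx), h.cm, h.sq, fun x hx e => ?_, h.nP⟩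
  · rw [← conj_mul, conj_eq hg]
    exact (h.nb g hg).imp (fun e => by rw [e]) fun e => by rw [e]
  · rw [← h.bi, zpowers_inv]
    exact h.ctr x hx e

theorem uniq {b' : G} (h' : Loc z b' P) : b' = b ∨ b' = b * z := by
  rcases h.memA.1 (h.ctr b' h'.bP h'.cb) with e | e | e | e
  · exact absurd (by rw [← h'.bb, e, one_mul]) h.z1
  · exact Or.inl e
  · exact absurd (by rw [← h'.bb, e, h.zz]) h.z1
  · exact Or.inr e

/-- squares of elements centralizing `z` centralize `b` -/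
theorem sq_cb (hg : Commute g z) : Commute (g * g) b := by
  rcases h.nb g hg with e | e
  · exact (of_conj_eq e).mul_left (of_conj_eq e)
  · refine of_conj_eq ?_
    rw [show g * g * b * (g * g)⁻¹ = g * (g * b * g⁻¹) * g⁻¹ by group, e, ← conj_mul, e, conj_eq hg,
      h.mzz]

theorem alpha {t c : G} {P' : Subgroup G} (h' : Loc t c P') (hc : Commute t b) (hne : t ≠ z) :
    Commute c b := by
  rcases h'.nb b hc.symm with e | e
  · exact (of_conj_eq e).symm
  have cz : Commute c z := h.bb ▸ (h'.sq_cb hc.symm).symm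
  rcases h.nb c cz with e' | e'
  · exact of_conj_eq e'
  refine absurd ?_ hne
  have a := mul_inv_eq_iff_eq_mul.1 e
  rw [mul_assoc, hc.eq, ← mul_assoc, mul_inv_eq_iff_eq_mul.1 e', mul_assoc b z, ← cz.eq, ← mul_assoc,
    mul_assoc (b * c), left_eq_mul] at a
  rw [← h.zi]
  exact eq_inv_of_mul_eq_one_right a

theorem inter {t c : G} {P' : Subgroup G} (h' : Loc t c P') (h1 : y ∈ zpowers b) (h2 : y ∈ zpowers c)
    (h3 : y ≠ 1) : t = z := by
  have k : ∀ {c t : G} {P : Subgroup G}, Loc t c P → y ∈ zpowers c →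
      (y * y = 1 ∧ y = t) ∨ (y * y ≠ 1 ∧ y * y = t) := fun {c t P} h h1 => by
    rcases h.memA.1 h1 with e | e | e | e
    · exact absurd e h3
    · exact Or.inr (by rw [e, h.bb]; exact ⟨h.z1, rfl⟩)
    · exact Or.inl (by rw [e]; exact ⟨h.zz, rfl⟩)
    · exact Or.inr (by rw [e, h.bzbz]; exact ⟨h.z1, rfl⟩)
  rcases k h h1 with a | a <;> rcases k h' h2 with a' | a'
  exacts [a'.2.symm.trans a.2, absurd a.1 a'.1, absurd a'.1 a.1, a'.2.symm.trans a.2]

/-- The elements of `C(z)` fixing the members of `T` modulo `z`. -/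
def stab (T : Set G) : Subgroup G where
  carrier := {g | Commute g z ∧ ∀ u ∈ T, g * u * g⁻¹ = u ∨ g * u * g⁻¹ = u * z}
  one_mem' := ⟨Commute.one_left z, fun u _ => Or.inl (by simp)⟩
  mul_mem' := by
    rintro g k ⟨h1, h2⟩ ⟨h3, h4⟩
    refine ⟨h1.mul_left h3, fun u hu => ?_⟩
    rw [show g * k * u * (g * k)⁻¹ = g * (k * u * k⁻¹) * g⁻¹ by group]
    rcases h4 u hu with e | e <;> rw [e]
    · exact h2 u hu
    · rw [← conj_mul, conj_eq h1]
      rcases h2 u hu with e | e <;> simp [e, h.mzz]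
  inv_mem' := by
    rintro g ⟨h1, h2⟩
    refine ⟨h1.inv_left, fun u hu => (h2 u hu).imp (fun e => ?_) fun e => ?_⟩
    · exact conj_eq (of_conj_eq e).inv_left
    · nth_rewrite 1 [← h.mzz u]
      rw [← conj_mul, conj_eq h1.inv_left]
      congr 1
      rw [← e]; group

theorem stab_le (T : Set G) : h.stab T ≤ centralizer {z} := fun _ hg => mem_cent.2 hg.1

theorem norm_stab {T : Set G} (hT : ∀ g, Commute g z → ∀ u ∈ T, g * u * g⁻¹ ∈ T) :
    centralizer {z} ≤ 𝐍[h.stab T] := by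
  refine le_normalizer_iff.2 fun g hg k ⟨h1, h2⟩ => ?_
  have hg := mem_cent.1 hg
  refine ⟨(hg.mul_left h1).mul_left hg.inv_left, fun u hu => ?_⟩
  have e : g * k * g⁻¹ * u * (g * k * g⁻¹)⁻¹ = g * (k * (g⁻¹ * u * g⁻¹⁻¹) * k⁻¹) * g⁻¹ := by group
  rw [e]
  refine (h2 _ (hT _ hg.inv_left u hu)).imp (fun e => ?_) fun e => ?_ <;> rw [e]
  · group
  · rw [← conj_mul, conj_eq hg]; group

theorem sq_stab {T : Set G} (hg : g ∈ h.stab T) {u : G} (hu : u ∈ T) : Commute (g * g) u := by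
  rcases hg.2 u hu with e | e
  · exact (of_conj_eq e).mul_left (of_conj_eq e)
  · refine of_conj_eq ?_
    rw [show g * g * u * (g * g)⁻¹ = g * (g * u * g⁻¹) * g⁻¹ by group, e, ← conj_mul, e,
      conj_eq hg.1, h.mzz]

theorem eq_of_ev_conj (hg : Commute g z) (hx : x ∈ P) (e : Ev P (g * x * g⁻¹) x) :
    g * x * g⁻¹ = x ∨ g * x * g⁻¹ = x * z :=
  h.eq_of_ev hx (h.nP g hg x hx) e.symm (by
    rw [conj_mul]
    rcases h.sq x hx with e | e <;> rw [e]
    · simp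
    · exact (conj_eq hg).symm)

end Loc

/-- `O₂(C(t))` -/
def PP (t : G) : Subgroup G := pCoreOf 2 (centralizer {t})

theorem PP_conj (g t : G) : PP (g * t * g⁻¹) = cj(g, PP t) := by
  rw [PP, centralizer_singleton_conj, pCoreOf_cj, PP]

theorem le_PP {t : G} {N : Subgroup G} (h2 : IsPGroup 2 N) (h : N ≤ centralizer {t})
    (hn : centralizer {t} ≤ 𝐍[N]) : N ≤ PP t := le_pCoreOf h2 h hn

theorem Loc.sq_mem_PP [Finite G] {t c z : G} {P : Subgroup G} (h : Loc t c P)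
    (hz : IsCharP 2 (centralizer {z})) (hc : Commute c z) : t ∈ PP z := by
  let x : centralizer ({z} : Set G) := ⟨c, mem_cent.2 hc⟩
  have m : ∀ y : centralizer ({z} : Set G), y ∈ zpowers x ↔ (y : G) ∈ zpowers c := fun y => by
    rw [← mem_map_subtype, MonoidHom.map_zpowers]; rfl
  have := (S1783.result ((fstar_eq_pCore_iff 2).2 (CP.isCharP_iff.1 hz)) (zpowers x)
    (isPGroup_zpowers ⟨2, Subtype.ext h.b4⟩) inferInstance fun g => ?_).1
    (subset_closure ⟨x, mem_zpowers x, rfl⟩)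
  · exact ⟨_, this, by simp [x, pow_two, h.bb]⟩
  refine or_iff_not_imp_right.2 fun hn => ?_
  obtain ⟨⟨y, h1, h2⟩, h3⟩ := ne_bot_iff_exists_ne_one.1 hn
  have h4 : (y : G) ≠ 1 := fun e => h3 (Subtype.ext (Subtype.ext e))
  have h5 : (y : G) ∈ zpowers ((g : G) * c * (g : G)⁻¹) := by
    obtain ⟨_, ⟨n, rfl⟩, rfl⟩ := h1
    exact ⟨n, by simp [x]⟩
  have h6 := h.inter (h.conj g) ((m y).1 h2) h5 h4
  rw [cj_eq_iff]
  refine mem_normalizer_of_cj_le ?_
  rw [MonoidHom.map_zpowers, zpowers_le, m]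
  exact h.memA.2 ((h.nb g (of_conj_eq h6)).elim (fun e => Or.inr (Or.inl e))
    fun e => Or.inr (Or.inr (Or.inr e)))

/-- The local hypothesis in characteristic two. -/
structure Top (z b : G) (P : Subgroup G) : Prop extends Loc z b P where
  ch : IsCharP 2 (centralizer {z})
  PQ : P ≤ PP z
  iv : ∀ x ∈ PP z, Commute x b → x * x = 1 → x ∈ P

namespace Top

variable {z b : G} {P : Subgroup G} (h : Top z b P)
include h

theorem conj (g : G) : Top (g * z * g⁻¹) (g * b * g⁻¹) cj(g, P) := by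
  refine ⟨h.toLoc.conj g, centralizer_singleton_conj g z ▸ h.ch.conj g, PP_conj g z ▸ cj_mono g h.PQ,
    ?_⟩
  rw [PP_conj]
  rintro _ ⟨x, hx, rfl⟩ e e'
  exact conj_mem_cj g (h.iv x hx ((comm_conj g).1 e) (by
    change g * x * g⁻¹ * (g * x * g⁻¹) = 1 at e'
    simpa using e'))

theorem syl [Finite G] {S : Subgroup G} (hS : IsSyl 2 S (centralizer {z})) : IsSyl 2 S ⊤ := by
  have hQ : PP z ≤ S := hS.pCoreOf_le
  have hz := hQ (h.PQ h.zP)
  refine isSyl_of_isSyl_normalizer (hS.mono (le_inf le_top le_normalizer) fun g hg => ?_)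
  have h1 := conj_mem_of_mem_normalizer hg.2 hz
  have h2 : ∀ s ∈ S, Commute s (g * z * g⁻¹) := fun s hs => by
    simpa [mul_assoc] using
      (mem_cent.1 (hS.le (inv_conj_mem_of_mem_normalizer hg.2 hs))).conj g
  have h3 : g * z * g⁻¹ * (g * z * g⁻¹) = 1 := by rw [conj_mul, h.zz]; simp
  have h4 := h.iv _ (h.ch ⟨hS.le h1, fun s hs => h2 s (hQ hs)⟩) (h2 _ (hQ (h.PQ h.bP))).symm h3
  exact mem_cent.2 (of_conj_eq ((h.invol (h.ctr _ h4 fun y hy => h2 y (hQ (h.PQ hy))) h3).resolve_left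
    (by simpa using h.z1)))

theorem memP [Finite G] {t c : G} {P' : Subgroup G} (h' : Loc t c P') (hc : Commute t b) : t ∈ P := by
  by_cases e : t = z
  · exact e ▸ h.zP
  · exact h.iv t (h'.sq_mem_PP h.ch (h.comm_z (h.alpha h' hc e))) hc h'.zz

end Top

end Cfsg.Agent.SymT
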